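import Cfsg.Agent.H780.HL.Coord
import Cfsg.Agent.LieClassical.SmallIso

/-!
# S5175 [L]: the Frattini argument in `Aut_F(V)` (helper497 for helper780)
-/

set_option autoImplicit false
set_option linter.unusedSectionVars false

namespace Cfsg.Agent.H497.HM.Frat

open Cfsg Cfsg.FusionSystem Cfsg.Agent.H756.HM Cfsg.Agent.H780.HL

universe u

variable {Ω : Type u} [Group Ω]

/-- `autInducedBy` without closure -/
theorem mem_aut {K P : Subgroup Ω} {α : MulAut P} :
    α ∈ autInducedBy K P ↔ ∃ g ∈ K, ∀ x : P, ((α x : P) : Ω) = g * (x : Ω) * g⁻¹ := by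
  constructor
  · intro h
    refine Subgroup.closure_induction (p := fun α _ => ∃ g ∈ K, ∀ x : P, ((α x : P) : Ω) = g * (x : Ω) * g⁻¹)
      (fun α h => h) ⟨1, K.one_mem, fun x => by simp⟩ ?_ ?_ h
    · rintro α β - - ⟨g, hg, h1⟩ ⟨k, hk, h2⟩
      refine ⟨g * k, K.mul_mem hg hk, fun x => ?_⟩
      rw [MulAut.mul_apply, h1, h2]
      group
    · rintro α - ⟨g, hg, h1⟩
      refine ⟨g⁻¹, K.inv_mem hg, fun x => ?_⟩
      have h2 := h1 (α⁻¹ x)
      rw [MulAut.apply_inv_self] at h2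
      rw [h2]
      group
  · intro h
    exact Subgroup.subset_closure h

variable {S : Subgroup Ω} {F : FusionSystem S} {K : Type} [Field K] [Fintype K] {V T : Subgroup Ω} {x : Ω}

theorem nor_V (b : Big F K V T x) {t v : Ω} (ht : t ∈ T) (hv : v ∈ V) : t * v * t⁻¹ ∈ V := by
  have h : t ∈ Subgroup.normalizer (V : Set Ω) := by
    have := b.nor ▸ ht
    exact this.2
  exact (Subgroup.mem_normalizer_iff.1 h v).1 hv

theorem comm_V (b : Big F K V T x) {v w : Ω} (hv : v ∈ V) (hw : w ∈ V) : v * w = w * v := by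
  have h1 := b.el v hv
  have h2 := b.el w hw
  have h3 := b.el (v * w) (V.mul_mem hv hw)
  rw [pow_two] at h1 h2 h3
  calc v * w = v * ((v * w) * (v * w)) * w := by rw [h3, mul_one]
    _ = (v * v) * (w * v) * (w * w) := by group
    _ = w * v := by rw [h1, h2, one_mul, mul_one]

/-- the automorphism of `V` induced by an element of `T` -/
theorem exists_ind (b : Big F K V T x) {t : Ω} (ht : t ∈ T) :
    ∃ a : MulAut V, a ∈ autInducedBy (cj x V) V ∧ ∀ v : V, ((a v : V) : Ω) = t * v * t⁻¹ := by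
  have h1 : t ∈ V ⊔ cj x V := by rw [← b.T_eq]; exact ht
  have h2 : t ∈ cj x V ⊔ V := by rw [sup_comm]; exact h1
  have hn : cj x V ≤ Subgroup.normalizer (V : Set Ω) := by
    intro w hw
    have := b.nor ▸ (cj_le_T b hw)
    exact this.2
  rw [← SetLike.mem_coe, Subgroup.coe_mul_of_left_le_normalizer_right (cj x V) V hn] at h2
  obtain ⟨w, hw, v, hv, rfl⟩ := h2
  have hwT := cj_le_T b hw
  let a : MulAut V :=
    { toFun := fun u => ⟨w * u * w⁻¹, nor_V b hwT u.2⟩
      invFun := fun u => ⟨w⁻¹ * u * w, by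
        have := nor_V b (T.inv_mem hwT) u.2
        rwa [inv_inv] at this⟩
      left_inv := fun u => Subtype.ext (by
        show w⁻¹ * (w * u * w⁻¹) * w = u
        group)
      right_inv := fun u => Subtype.ext (by
        show w * (w⁻¹ * u * w) * w⁻¹ = u
        group)
      map_mul' := fun u u' => Subtype.ext (by
        show w * ((u : Ω) * u') * w⁻¹ = w * u * w⁻¹ * (w * u' * w⁻¹)
        group) }
  refine ⟨a, mem_aut.2 ⟨w, hw, fun u => rfl⟩, fun u => ?_⟩
  show w * (u : Ω) * w⁻¹ = w * v * u * (w * v)⁻¹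
  have h3 := comm_V b hv u.2
  calc w * (u : Ω) * w⁻¹ = w * (u * v) * v⁻¹ * w⁻¹ := by group
    _ = w * v * u * (w * v)⁻¹ := by rw [← h3]; group

/-- **The Frattini argument.** -/
theorem frattini [Finite S] (b : Big F K V T x) {α : MulAut V} (hα : α ∈ F.autGroup V) :
    ∃ e ∈ b.E, ∀ t ∈ T, ∃ t' ∈ T, ∀ v v' : V, (v' : Ω) = t * v * t⁻¹ →
      (((e * α) v' : V) : Ω) = t' * (((e * α) v : V) : Ω) * t'⁻¹ := by
  have hV : Finite V := H802.finite_of_le b.V_le
  have h2F : Fact (Nat.Prime 2) := ⟨Nat.prime_two⟩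
  set A := autInducedBy (cj x V) V with hA
  set A' := A.map (MulAut.conj α).toMonoidHom with hA'
  have hA'E : A' ≤ b.E := by
    rintro _ ⟨a, ha, rfl⟩
    exact b.E_nor α hα a (b.A_le ha)
  have hq2 : Fintype.card K = 2 ^ b.n := b.hK
  have hcA : Nat.card A = 2 ^ b.n := by rw [← hq2]; exact b.A_card
  have hcA' : Nat.card A' = 2 ^ b.n := by
    rw [hA', Subgroup.card_map_of_injective (MulAut.conj α).injective, hcA]
  have hcE : Nat.card b.E = 2 ^ b.n * ((2 ^ b.n) ^ 2 - 1) := by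
    rw [Nat.card_congr b.ρ.toEquiv, Cfsg.Agent.LieClassical.SmallIso.card_sl_two, hq2]
  have hfac : (Nat.card b.E).factorization 2 = b.n := by
    have hn := b.hn
    have hodd : ¬ 2 ∣ (2 ^ b.n) ^ 2 - 1 := by
      intro h
      have h1 : 2 ∣ (2 ^ b.n) ^ 2 := (dvd_pow_self 2 (by omega)).trans (dvd_pow_self _ two_ne_zero)
      have h2 : 1 ≤ (2 ^ b.n) ^ 2 := Nat.one_le_pow _ _ (by positivity)
      have h3 := (Nat.dvd_sub h1 h)
      rw [Nat.sub_sub_self h2] at h3
      exact absurd h3 (by norm_num)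
    rw [hcE, Nat.factorization_mul (by positivity) (fun h => hodd (by rw [h]; exact dvd_zero _)),
      Finsupp.add_apply, Nat.factorization_eq_zero_of_not_dvd hodd, add_zero, Nat.Prime.factorization_pow Nat.prime_two,
      Finsupp.single_eq_same]
  have card_sub : ∀ B : Subgroup (MulAut V), B ≤ b.E → Nat.card (B.subgroupOf b.E) = Nat.card B := fun B hB =>
    Nat.card_congr (Subgroup.subgroupOfEquivOfLe hB).toEquiv
  let P : Sylow 2 b.E := Sylow.ofCard (A.subgroupOf b.E) (by rw [card_sub A b.A_le, hcA, hfac])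
  let P' : Sylow 2 b.E := Sylow.ofCard (A'.subgroupOf b.E) (by rw [card_sub A' hA'E, hcA', hfac])
  obtain ⟨e, he⟩ := MulAction.exists_smul_eq b.E P' P
  have hconj : ∀ a ∈ A, (e : MulAut V) * (α * a * α⁻¹) * (e : MulAut V)⁻¹ ∈ A := by
    intro a ha
    have h1 : α * a * α⁻¹ ∈ A' := ⟨a, ha, rfl⟩
    have h2 : (⟨α * a * α⁻¹, hA'E h1⟩ : b.E) ∈ (P' : Subgroup b.E) := h1
    have h3 : e * ⟨α * a * α⁻¹, hA'E h1⟩ * e⁻¹ ∈ (P : Subgroup b.E) := by
      rw [← he]
      exact ⟨_, h2, rfl⟩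
    exact h3
  refine ⟨e, e.2, fun t ht => ?_⟩
  obtain ⟨a, ha, hat⟩ := exists_ind b ht
  obtain ⟨t', ht', h4⟩ := mem_aut.1 (hconj a ha)
  refine ⟨t', cj_le_T b ht', fun v v' hv' => ?_⟩
  have h5 : v' = a v := Subtype.ext (by rw [hat]; exact hv')
  rw [h5, ← h4]
  congr 1
  show _ = ((e : MulAut V) * (α * a * α⁻¹) * (e : MulAut V)⁻¹) ((e : MulAut V) (α v))
  simp only [MulAut.mul_apply, MulAut.inv_apply_self]

end Cfsg.Agent.H497.HM.Frat
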