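import Cfsg.Agent.H780.HL.Defs
import Cfsg.Agent.H497.HM.SLNorm

/-!
# S5175 L, group side: the normalizers of the unitriangular group and of `V` (helper497)

`stG2 : StG2`, `stG3 : StG3`.
-/

set_option autoImplicit false

namespace Cfsg.Agent.H497.HM

open Cfsg Cfsg.Agent.H780.HL

theorem charP_two {K : Type} [Field K] [Fintype K] (h : ∃ n : ℕ, Fintype.card K = 2 ^ n) : CharP K 2 := by
  obtain ⟨n, hn⟩ := h
  obtain ⟨p, hp⟩ := CharP.exists K
  obtain ⟨k, hpp, hk⟩ := FiniteField.card K p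
  rw [hn] at hk
  have h1 : p ∣ 2 ^ n := hk ▸ dvd_pow_self p k.ne_zero
  have h2 : p = 2 := (Nat.prime_dvd_prime_iff_eq hpp Nat.prime_two).1 (hpp.dvd_of_dvd_pow h1)
  rwa [h2] at hp

section gen

variable {K : Type*} [Field K]

theorem act_conj (α : MulAut (SL3 K)) (s : SL3 K) : α * MulAut.conj s * α⁻¹ = MulAut.conj (α s) := by
  apply MulEquiv.ext
  intro g
  rw [MulAut.mul_apply, MulAut.mul_apply, MulAut.conj_apply, MulAut.conj_apply, map_mul, map_mul, map_inv,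
    MulAut.apply_inv_self]

theorem DD_um {y : MulAut (SL3 K)} (hy : y ∈ DD K) (a b c : K) : ∃ a' b' c', y (um a b c) = um a' b' c' := by
  obtain ⟨ν, ν', σ, rfl | rfl⟩ := hy
  · exact ⟨_, _, _, dg_um ν ν' σ a b c⟩
  · exact ⟨_, _, _, by rw [MulAut.mul_apply, gr_um, dg_um]⟩

theorem DF_le_DD : DF K ≤ DD K := by
  rintro _ ⟨ν, ν', σ, rfl⟩
  exact ⟨ν, ν', σ, .inl rfl⟩

theorem DF_V {y : MulAut (SL3 K)} (hy : y ∈ DF K) (a c : K) : ∃ a' c', y (um a 0 c) = um a' 0 c' := by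
  obtain ⟨ν, ν', σ, rfl⟩ := hy
  exact ⟨_, _, by rw [dg_um, map_zero, mul_zero]⟩

theorem not_DF_V {y : MulAut (SL3 K)} (hy : y ∈ DD K) (hn : y ∉ DF K) (b c : K) :
    ∃ a' c', y (um a' 0 c') = um 0 b c := by
  obtain ⟨ν, ν', σ, rfl | rfl⟩ := hy
  · exact absurd ⟨ν, ν', σ, rfl⟩ hn
  · refine ⟨-σ.symm ((ν' : K)⁻¹ * b), -σ.symm ((ν : K)⁻¹ * (ν' : K)⁻¹ * c), ?_⟩
    have h1 : (ν : K) ≠ 0 := ν.ne_zero
    have h2 : (ν' : K) ≠ 0 := ν'.ne_zero
    rw [MulAut.mul_apply, gr_um, dg_um]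
    simp only [neg_zero, map_zero, mul_zero, neg_neg, zero_mul, add_zero, RingEquiv.apply_symm_apply]
    congr 1
    · field_simp
    · field_simp

/-- diagonal matrices of determinant one -/
def dSL (w : Fin 3 → Kˣ) (hw : w 0 * w 1 * w 2 = 1) : SL3 K :=
  ⟨Matrix.diagonal fun i => (w i : K), by
    rw [Matrix.det_diagonal, Fin.prod_univ_three, ← Units.val_mul, ← Units.val_mul, hw, Units.val_one]⟩

theorem mul_dSL (w : Fin 3 → Kˣ) (hw : w 0 * w 1 * w 2 = 1) (s : SL3 K) (i j : Fin 3) :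
    (s * dSL w hw).1 i j = s.1 i j * w j := by
  rw [val_mul]
  exact Matrix.mul_diagonal _ _ _ _

theorem dSL_mul (w : Fin 3 → Kˣ) (hw : w 0 * w 1 * w 2 = 1) (s : SL3 K) (i j : Fin 3) :
    (dSL w hw * s).1 i j = w i * s.1 i j := by
  rw [val_mul]
  exact Matrix.diagonal_mul _ _ _ _

theorem dconj_eq (w : Fin 3 → Kˣ) (hw : w 0 * w 1 * w 2 = 1) : dconj w = MulAut.conj (dSL w hw) := by
  apply MulEquiv.ext
  intro g
  rw [MulAut.conj_apply, eq_mul_inv_iff_mul_eq]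
  refine ext3 fun i j => ?_
  rw [mul_dSL, dSL_mul, dconj_apply, mul_assoc, ← Units.val_mul, inv_mul_cancel, Units.val_one, mul_one]

theorem dconj_mem_DF (w : Fin 3 → Kˣ) : dconj w ∈ DF K := by
  refine ⟨w 1 * (w 2)⁻¹, w 0 * (w 1)⁻¹, RingEquiv.refl K, ?_⟩
  apply MulEquiv.ext
  intro g
  refine ext3 fun i j => ?_
  rw [dconj_apply, dg_apply]
  have h0 : ((w 0 : Kˣ) : K) ≠ 0 := (w 0).ne_zero
  have h1 : ((w 1 : Kˣ) : K) ≠ 0 := (w 1).ne_zero
  have h2 : ((w 2 : Kˣ) : K) ≠ 0 := (w 2).ne_zero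
  fin_cases i <;> fin_cases j <;> simp [wv] <;> field_simp

end gen

variable {K : Type} [Field K] [Fintype K]

theorem innS_normal : (InnS K).Normal := by
  refine ⟨?_⟩
  rintro _ ⟨s, rfl⟩ α
  exact ⟨α s, (act_conj α s).symm⟩

theorem exists_decomp {Y : Subgroup (MulAut (SL3 K))} {g : MulAut (SL3 K)} (hg : g ∈ GG Y) :
    ∃ s : SL3 K, ∃ y ∈ Y, g = MulAut.conj s * y := by
  have := innS_normal (K := K)
  obtain ⟨_, ⟨s, rfl⟩, y, hy, rfl⟩ := Subgroup.mem_sup_of_normal_left.1 hg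
  exact ⟨s, y, hy, rfl⟩

/-- **G2.** -/
theorem stG2 : StG2 := by
  intro K _ _ Y hY g hg hT
  have := charP_two hY.char2
  obtain ⟨s, y, hy, rfl⟩ := exists_decomp hg
  have h1 : ∀ a b c : K, ∃ a' b' c' : K, s * um a b c = um a' b' c' * s := by
    intro a b c
    obtain ⟨a1, b1, c1, e1⟩ := DD_um (inv_mem (hY.le hy)) a b c
    obtain ⟨a', b', c', e2⟩ := hT (MulAut.conj (um a1 b1 c1)) ⟨_, _, _, rfl⟩
    refine ⟨a', b', c', mat_of_conj ?_⟩
    rw [← e2, ← e1, ← act_conj y⁻¹]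
    group
  obtain ⟨h10, h20, h21⟩ := upper_of_norm h1
  have hd := s.2
  rw [Matrix.det_fin_three, h10, h20, h21] at hd
  have hd' : s.1 0 0 * s.1 1 1 * s.1 2 2 = 1 := by linear_combination hd
  have n0 : s.1 0 0 ≠ 0 := by
    intro h
    rw [h] at hd'
    simp at hd'
  have n1 : s.1 1 1 ≠ 0 := by
    intro h
    rw [h] at hd'
    simp at hd'
  have n2 : s.1 2 2 ≠ 0 := by
    intro h
    rw [h] at hd'
    simp at hd'
  let w : Fin 3 → Kˣ := ![Units.mk0 _ n0, Units.mk0 _ n1, Units.mk0 _ n2]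
  have hw : w 0 * w 1 * w 2 = 1 := Units.ext (by simpa [w] using hd')
  refine ⟨MulAut.conj (um (s.1 1 2 * (s.1 2 2)⁻¹) (s.1 0 1 * (s.1 1 1)⁻¹) (s.1 0 2 * (s.1 2 2)⁻¹)), ⟨_, _, _, rfl⟩,
    dconj w * y, mul_mem (hY.tor w hw) hy, ?_⟩
  rw [← mul_assoc, dconj_eq w hw, ← map_mul]
  congr 2
  refine ext3 fun i j => ?_
  rw [mul_dSL]
  fin_cases i <;> fin_cases j <;> simp [um, w, h10, h20, h21, n0, n1, n2]

/-- **G3.** -/
theorem stG3 : StG3 := by
  intro K _ _ Y hY g hg hT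
  have := charP_two hY.char2
  obtain ⟨s, y, hy, rfl⟩ := exists_decomp hg
  by_cases hDF : y ∈ DF K
  swap
  · exfalso
    refine no_swap s fun b c => ?_
    obtain ⟨a1, c1, e1⟩ := not_DF_V (hY.le hy) hDF b c
    obtain ⟨a', c', e2⟩ := hT a1 c1
    refine ⟨a', c', mat_of_conj ?_⟩
    rw [← e2, ← e1, ← act_conj y]
    group
  · have h1 : ∀ a c : K, ∃ a' c' : K, s * um a 0 c = um a' 0 c' * s := by
      intro a c
      obtain ⟨a1, c1, e1⟩ := DF_V (inv_mem hDF) a c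
      obtain ⟨a', c', e2⟩ := hT a1 c1
      refine ⟨a', c', mat_of_conj ?_⟩
      rw [← e2, ← e1, ← act_conj y⁻¹]
      group
    obtain ⟨h20, h21⟩ := row_of_norm h1
    have n2 : s.1 2 2 ≠ 0 := by
      intro h
      have hd := s.2
      rw [Matrix.det_fin_three, h, h20, h21] at hd
      simp at hd
    let v : Fin 3 → Kˣ := ![Units.mk0 _ n2, 1, (Units.mk0 _ n2)⁻¹]
    have hv : v 0 * v 1 * v 2 = 1 := by simp [v]
    have hv' : v⁻¹ 0 * v⁻¹ 1 * v⁻¹ 2 = 1 := by simp [v]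
    refine ⟨s * dSL v hv, ?_, ?_, ?_, dconj v⁻¹ * y, mul_mem (hY.tor _ hv') hy, mul_mem (dconj_mem_DF _) hDF, ?_⟩
    · rw [mul_dSL, h20, zero_mul]
    · rw [mul_dSL, h21, zero_mul]
    · rw [mul_dSL]
      simp [v, n2]
    · rw [← mul_assoc, dconj_eq _ hv', ← map_mul]
      congr 2
      refine ext3 fun i j => ?_
      rw [mul_dSL, mul_dSL, mul_assoc, ← Units.val_mul, Pi.inv_apply, mul_inv_cancel, Units.val_one, mul_one]

end Cfsg.Agent.H497.HM
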